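import Mathlib
import Cfsg.Agent.H31.HermPts
import Cfsg.Agent.H31.HermSU
import Cfsg.Agent.H29.PGL2Basic

/-!
Rank three actions of the unitary groups in dimension at least six: definitions, the statements
of the steps and the assembly.  The paper proof is in `stubs/notes/h74_s2196.md`.
-/

set_option autoImplicit false

namespace Cfsg.Agent.H74.Ru

open Cfsg Module Cfsg.Agent.H31
open scoped MatrixGroups

/-- A unitary space of dimension `n ≥ 6` over the field with `q ^ 2 ≥ 9` elements. -/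
structure Un (F V : Type) [Field F] [Fintype F] [AddCommGroup V] [Module F V] where
  q : ℕ
  σ : F →+* F
  B : V →ₛₗ[σ] V →ₗ[F] F
  hF : Fintype.card F = q ^ 2
  hσ : ∀ x, σ x = x ^ q
  herm : IsHerm B
  n : ℕ
  dim : finrank F V = n
  hn : 6 ≤ n
  hq : 3 ≤ q

/-- At most three double cosets. -/
def Rk3 {G : Type} [Group G] (K : Subgroup G) : Prop :=
  ∃ a b : G, ∀ g : G, g ∈ K ∨ (∃ h ∈ K, ∃ h' ∈ K, g = h * a * h') ∨ ∃ h ∈ K, ∃ h' ∈ K, g = h * b * h'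

/-- Linked characters. -/
def Lnk {G : Type} [Group G] (H : Subgroup G) (θ θ' : H →* ℂˣ) : Prop :=
  ∃ g : G, ∀ h h' : H, (h : G) * g = g * h' → θ' h = θ h'

/-- The span of the first `i` vectors. -/
def Fl (F : Type) [Field F] {V : Type} [AddCommGroup V] [Module F V] {n : ℕ} (v : Fin n → V)
    (i : ℕ) : Submodule F V := Submodule.span F (v '' {j | j.val < i})

/-- `g` is triangular with diagonal `t`. -/
def Tri {F V : Type} [Field F] [AddCommGroup V] [Module F V] {n : ℕ} (v : Fin n → V)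
    (g : V ≃ₗ[F] V) (t : Fin n → Fˣ) : Prop := ∀ i, g (v i) - (t i : F) • v i ∈ Fl F v i.val

/-- The permutations that commute with the reversal. -/
def Rv {n : ℕ} (π : Equiv.Perm (Fin n)) : Prop := ∀ i, π i.rev = (π i).rev

namespace Un

variable {F V : Type} [Field F] [Fintype F] [AddCommGroup V] [Module F V] (S : Un F V)

/-- The special unitary group. -/
noncomputable abbrev G : Subgroup (V ≃ₗ[F] V) := sisom S.B
/-- The first index. -/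
def i0 : Fin S.n := ⟨0, by have := S.hn; omega⟩
/-- The second index. -/
def i1 : Fin S.n := ⟨1, by have := S.hn; omega⟩
/-- Frames: bases with antidiagonal Gram matrix. -/
def Fr (v : Fin S.n → V) : Prop := ∀ i j, S.B (v i) (v j) = if j = i.rev then 1 else 0
/-- The entry of `g` in row `a` and column `b`. -/
def ent (v : Fin S.n → V) (g : V ≃ₗ[F] V) (a b : Fin S.n) : F := S.B (v a.rev) (g (v b))

/-- The torus. -/
def Tor : Subgroup (Fin S.n → Fˣ) where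
  carrier := {t | (∀ i, S.σ (t i) * t i.rev = 1) ∧ ∏ i, t i = 1}
  one_mem' := ⟨fun i => by simp, by simp⟩
  mul_mem' := by
    rintro s t ⟨s1, s2⟩ ⟨t1, t2⟩
    refine ⟨fun i => ?_, by simp only [Pi.mul_apply, Finset.prod_mul_distrib, s2, t2, mul_one]⟩
    simp only [Pi.mul_apply, Units.val_mul, map_mul]
    linear_combination (S.σ (t i) * t i.rev) * s1 i + t1 i
  inv_mem' := by
    rintro t ⟨t1, t2⟩
    refine ⟨fun i => ?_, by simp only [Pi.inv_apply, Finset.prod_inv_distrib, t2, inv_one]⟩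
    simp only [Pi.inv_apply, Units.val_inv_eq_inv_val, map_inv₀]
    rw [← mul_inv, t1 i, inv_one]

theorem mem_Tor {t : Fin S.n → Fˣ} :
    t ∈ S.Tor ↔ (∀ i, S.σ (t i) * t i.rev = 1) ∧ ∏ i, t i = 1 := Iff.rfl

/-- The nontrivial characters of the torus that are trivial on `D` are conjugate. -/
def One (D : Subgroup S.Tor) : Prop := ∀ θ θ' : S.Tor →* ℂˣ, θ ≠ 1 → θ' ≠ 1 →
  (∀ t ∈ D, θ t = 1) → (∀ t ∈ D, θ' t = 1) →
  ∃ π, Rv π ∧ ∀ t t' : S.Tor, (∀ i, t'.1 i = t.1 (π i)) → θ' t = θ t'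
/-- `K` is transitive on chambers. -/
def Ct (K : Subgroup (V ≃ₗ[F] V)) (v : Fin S.n → V) : Prop :=
  ∀ g ∈ S.G, ∃ h ∈ S.G, (∃ t, Tri v h t) ∧ ∃ k ∈ K, g = h * k
/-- The chamber stabilisers cover a subgroup of index at most three of the first root. -/
def CovA (K : Subgroup (V ≃ₗ[F] V)) : Prop := ∀ v, S.Fr v → ∃ j : ℕ, (j = 2 ∨ j = 3) ∧
  ∀ c : Fˣ, ∃ g ∈ K, ∃ t, Tri v g t ∧ t S.i0 / t S.i1 = c ^ j
/-- The chamber stabilisers separate the first root from the roots of the Levi factor. -/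
def CovB (K : Subgroup (V ≃ₗ[F] V)) : Prop := ∀ v, S.Fr v → ∀ a b : Fin S.n, 0 < a.val → a < b →
  b.val + 1 < S.n → ∃ g ∈ K, ∃ t, Tri v g t ∧ t a = t b ∧ t S.i0 ≠ t S.i1
/-- `x`, `y` span a totally isotropic line. -/
def TI (x y : V) : Prop := S.B x x = 0 ∧ S.B y y = 0 ∧ S.B x y = 0 ∧ x ≠ 0 ∧ y ∉ F ∙ x
/-- `w` is the vector of an element of `K` in the unipotent radical at `x`. -/
def Rad (K : Subgroup (V ≃ₗ[F] V)) (x w : V) : Prop :=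
  S.B x w = 0 ∧ ∃ c, ∃ g ∈ K, IsEich S.B x w c g
/-- The radical at `x` is transitive on the other points of the line. -/
def Good (K : Subgroup (V ≃ₗ[F] V)) (x y : V) : Prop := ∀ c, ∃ w, S.Rad K x w ∧ S.B w y = c
/-- The radical at `x` is trivial on the line. -/
def Bad (K : Subgroup (V ≃ₗ[F] V)) (x y : V) : Prop := ∀ w, S.Rad K x w → S.B w y = 0
/-- All lines on `x` are good. -/
def All (K : Subgroup (V ≃ₗ[F] V)) (x : V) : Prop :=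
  x ≠ 0 ∧ S.B x x = 0 ∧ ∀ y, S.TI x y → S.Good K x y
/-- Every flag is good or bad. -/
def Dich (K : Subgroup (V ≃ₗ[F] V)) : Prop := ∀ x y, S.TI x y → S.Good K x y ∨ S.Bad K x y
/-- Every line has a good point. -/
def Line (K : Subgroup (V ≃ₗ[F] V)) : Prop := ∀ x y, S.TI x y → ∃ x' y', S.TI x' y' ∧
  Submodule.span F {x', y'} = Submodule.span F {x, y} ∧ S.Good K x' y'

end Un

/-- Statements about all unitary spaces. -/
def AllU (P : ∀ {F V : Type} [Field F] [Fintype F] [AddCommGroup V] [Module F V]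
    [FiniteDimensional F V] (_ : Un F V), Prop) : Prop :=
  ∀ {F V : Type} [Field F] [Fintype F] [AddCommGroup V] [Module F V] [FiniteDimensional F V]
    (S : Un F V), P S

/-- Statements about all subgroups of the special unitary groups. -/
def AllK (P : ∀ {F V : Type} [Field F] [Fintype F] [AddCommGroup V] [Module F V]
    [FiniteDimensional F V] (_ : Un F V) (_ : Subgroup (V ≃ₗ[F] V)), Prop) : Prop :=
  ∀ {F V : Type} [Field F] [Fintype F] [AddCommGroup V] [Module F V] [FiniteDimensional F V]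
    (S : Un F V) (K : Subgroup (V ≃ₗ[F] V)), K ≤ S.G → P S K

/-! ### Frames -/

/-- **KA** -/
def KaStmt : Prop := AllU fun {F V} _ _ _ _ _ S => ∀ v, S.Fr v →
  (∀ x, x = ∑ i, S.B (v i.rev) x • v i) ∧
  (∀ (i : ℕ) x, x ∈ Fl F v i ↔ ∀ j : Fin S.n, i ≤ j.val → S.B (v j.rev) x = 0) ∧
  LinearIndependent F v ∧ (∀ g ∈ isom S.B, S.Fr fun i => g (v i)) ∧
  (∀ (g h : V ≃ₗ[F] V) t s, Tri v g t → Tri v h s → Tri v (g * h) (t * s)) ∧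
  (∀ (g : V ≃ₗ[F] V) t, Tri v g t → Tri v g⁻¹ t⁻¹) ∧
  (∀ (g : V ≃ₗ[F] V) t s, Tri v g t → Tri v g s → t = s) ∧
  (∀ (g : V ≃ₗ[F] V) t, Tri v g t → ∀ i, (∀ x, g x ∈ Fl F v i ↔ x ∈ Fl F v i) ∧
    Fl F (fun j => g (v j)) i = Fl F v i) ∧
  ∀ w, S.Fr w → (∀ i, Fl F w i = Fl F v i) → ∀ (g : V ≃ₗ[F] V) t, Tri w g t → Tri v g t

/-- **KB** -/
def KbStmt : Prop := AllU fun {F V} _ _ _ _ _ S => ∀ v, S.Fr v →
  (∀ g ∈ S.G, ∀ t, Tri v g t → t ∈ S.Tor) ∧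
  (∀ t ∈ S.Tor, ∃ g ∈ S.G, ∀ i, g (v i) = (t i : F) • v i) ∧
  (∀ g : V ≃ₗ[F] V, Tri v g 1 → ∃ m, g ^ ringChar F ^ m = 1) ∧
  ∀ (g : V ≃ₗ[F] V) t m, Tri v g t → g ^ ringChar F ^ m = 1 → t = 1

/-- **FRM** -/
def FrmStmt : Prop := AllU fun {F V} _ _ _ _ _ S =>
  (∀ s (hs : 2 * s ≤ S.n) (e : Fin s → V), LinearIndependent F e → (∀ i j, S.B (e i) (e j) = 0) →
    ∃ v, S.Fr v ∧ ∀ i : Fin s, v ⟨i.val, by omega⟩ = e i) ∧
  (∀ x y, S.TI x y → ∃ v, S.Fr v ∧ v S.i0 = x ∧ v S.i1 = y) ∧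
  ∀ v w, S.Fr v → S.Fr w → ∃ g ∈ S.G, ∀ i, ∃ c : Fˣ, g (v i) = (c : F) • w i

/-- **FIX** -/
def FixStmt : Prop := AllK fun {F V} _ _ _ _ _ S P => IsPGroup (ringChar F) P →
  ∀ X R : Submodule F V, X ≤ R → (∀ x ∈ X, ∀ r ∈ R, S.B x r = 0) →
  (∀ g ∈ P, ∀ x ∈ X, g x ∈ X) → (∀ g ∈ P, ∀ r ∈ R, g r ∈ R) →
  (∃ y ∈ R, y ∉ X ∧ S.B y y = 0) → ∃ y ∈ R, y ∉ X ∧ S.B y y = 0 ∧ ∀ g ∈ P, g y - y ∈ X

/-- **FLAG** -/
def FlagStmt : Prop := AllK fun {F _} _ _ _ _ _ S P => IsPGroup (ringChar F) P →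
  ∀ x y, S.TI x y → (∀ g ∈ P, g x = x ∧ g y - y ∈ F ∙ x) →
  ∃ v, S.Fr v ∧ v S.i0 = x ∧ v S.i1 = y ∧ ∀ g ∈ P, Tri v g 1

/-- **CF0** -/
def Cf0Stmt : Prop := AllU fun {F _} _ _ _ _ _ S => ∀ v, S.Fr v → ∀ a : Fin S.n, a ≠ a.rev →
  ∀ y, S.B y y = 0 → S.B (v a) y = 1 → y ∈ Fl F v (a.rev.val + 1) →
  ∃ u ∈ S.G, Tri v u 1 ∧ u (v a) = v a ∧ u (v a.rev) = y ∧
    ∀ l, l ≠ a.rev → S.B (v l) y = 0 → u (v l) = v l

/-- **CF**: two chambers lie in a common apartment. -/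
def CfStmt : Prop := AllU fun {F _} _ _ _ _ _ S => ∀ v w, S.Fr v → S.Fr w →
  ∃ c π, S.Fr c ∧ Rv π ∧ (∀ i, Fl F c i = Fl F v i) ∧ ∀ i, Fl F (fun j => c (π j)) i = Fl F w i

/-- **BRU** -/
def BruStmt : Prop := AllU fun S => ∀ v, S.Fr v → ∀ g ∈ S.G, ∃ π, Rv π ∧ ∀ t ∈ S.Tor,
  ∃ h ∈ S.G, Tri v h t ∧ Tri v (g⁻¹ * h * g) fun i => t (π i)

/-! ### The chamber-transitive case -/

/-- **SYLB** -/
def SylbStmt : Prop := AllU fun {F V} _ _ _ _ _ S => ∀ v, S.Fr v →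
  ∃ P : Sylow (ringChar F) S.G, ∀ h : S.G, (∃ t, Tri v (h : V ≃ₗ[F] V) t) →
    h ∈ Subgroup.normalizer ((P : Subgroup S.G) : Set S.G)

/-- **NFT** -/
def NftStmt : Prop := ∀ (F : Type) [Field F] [Fintype F] (n q : ℕ), Fintype.card F = q ^ 2 →
  6 ≤ n → 3 ≤ q → ∀ H : Subgroup (PSU n F q), IsCoatom H →
  ∀ U : Sylow (ringChar F) (PSU n F q), ¬ ∀ g, ∃ h ∈ H,
    ∃ x ∈ Subgroup.normalizer ((U : Subgroup (PSU n F q)) : Set (PSU n F q)), g = h * x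

/-- **CT** -/
def CtStmt : Prop := AllK fun S K => IsCoatom (K.subgroupOf S.G) →
  Subgroup.center S.G ≤ K.subgroupOf S.G → ∀ v, S.Fr v → ¬ S.Ct K v

/-! ### The covering of the torus -/

/-- **RK** -/
def RkStmt : Prop := ∀ (G : Type) [Group G] [Finite G] (K H : Subgroup G), Rk3 K →
  (∃ g : G, ∀ h ∈ H, ∀ k ∈ K, g ≠ h * k) → ∀ θ θ' : H →* ℂˣ,
  (∀ h : H, (h : G) ∈ K → θ h = 1) → (∀ h : H, (h : G) ∈ K → θ' h = 1) →
  Lnk H 1 θ ∨ Lnk H 1 θ' ∨ Lnk H θ θ'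

/-- **TC** -/
def TcStmt : Prop := AllK fun S K => Rk3 (K.subgroupOf S.G) → ∀ v, S.Fr v → ¬ S.Ct K v →
  ∃ D : Subgroup S.Tor, (∀ t ∈ D, ∃ g ∈ K, Tri v g t.1) ∧ S.One D

/-- **EXP** -/
def ExpStmt : Prop := AllU fun S => ∀ D : Subgroup S.Tor, S.One D →
  ∃ r : ℕ, r.Prime ∧ ∀ t : S.Tor, t ^ r ∈ D

/-- **C1** -/
def C1Stmt : Prop := AllU fun {F _} _ _ _ _ _ S => ∀ D : Subgroup S.Tor, S.One D →
  ∀ r : ℕ, r.Prime → (∀ t : S.Tor, t ^ r ∈ D) → ∃ j : ℕ, (j = 2 ∨ j = 3) ∧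
    ∀ c : Fˣ, ∃ t ∈ D, t.1 S.i0 / t.1 S.i1 = c ^ j

/-- **C2** -/
def C2Stmt : Prop := AllU fun S => ∀ r : ℕ, r.Prime → ∀ a b : Fin S.n, 0 < a.val → a < b →
  b.val + 1 < S.n → ∃ t : S.Tor, t.1 a = t.1 b ∧ t.1 S.i0 ^ r ≠ t.1 S.i1 ^ r

/-! ### Lines -/

/-- **IRR** -/
def IrrStmt : Prop := ∀ (F : Type) [Field F] [Fintype F] (q j : ℕ), Fintype.card F = q ^ 2 →
  3 ≤ q → j = 2 ∨ j = 3 → ∀ A : AddSubgroup F, (∀ c : Fˣ, ∀ a ∈ A, (c : F) ^ j * a ∈ A) →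
  A = ⊥ ∨ A = ⊤

/-- **KLEIN** -/
def KleinStmt : Prop := ∀ (M X : Type) [Group M] [Finite M] [MulAction M X],
  (∀ g : M, g ≠ 1 → {x : X | g • x = x}.ncard = 2) → ∀ Ω : Set X, Ω.Finite →
  (∀ (g : M), ∀ x ∈ Ω, g • x ∈ Ω) → (∀ x ∈ Ω, 4 ≤ Nat.card (MulAction.stabilizer M x)) →
  Ω.ncard ≤ 2 ∨ Ω.ncard = 6 ∨ Ω.ncard = 12

/-- **PG2** -/
def Pg2Stmt : Prop := ∀ (F : Type) [Field F] [Finite F] (H : Subgroup PGL(2, F)),
  ¬ ringChar F ∣ Nat.card H → (∀ x : H29.P1 F, 4 ≤ Nat.card (MulAction.stabilizer H x)) →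
  Nat.card F = 5 ∨ Nat.card F = 11

/-- **PAN** -/
def PanStmt : Prop := ∀ (F V : Type) [Field F] [Fintype F] [AddCommGroup V] [Module F V]
  [FiniteDimensional F V] (q : ℕ), Fintype.card F = q ^ 2 → 3 ≤ q →
  ∀ (Γ : Subgroup (V ≃ₗ[F] V)) (L : Submodule F V), finrank F L = 2 →
  (∀ g ∈ Γ, ∀ x ∈ L, g x ∈ L) →
  (∀ x ∈ L, x ≠ 0 → ∃ j : ℕ, (j = 2 ∨ j = 3) ∧ ∀ c : Fˣ, ∃ g ∈ Γ, ∃ s s' : Fˣ,
    g x = (s : F) • x ∧ (∀ y ∈ L, g y - (s' : F) • y ∈ F ∙ x) ∧ s / s' = c ^ j) →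
  ∃ g ∈ Γ, (∃ m, g ^ ringChar F ^ m = 1) ∧ ∃ y ∈ L, g y ≠ y

/-- **GB** -/
def GbStmt : Prop := AllK fun {F _} _ _ _ _ _ S K =>
  (∀ k ∈ K, ∀ x y, (S.Good K x y → S.Good K (k x) (k y)) ∧ (S.Bad K x y → S.Bad K (k x) (k y)) ∧
    (S.TI x y → S.TI (k x) (k y)) ∧ (S.All K x → S.All K (k x)) ∧
    ∀ w, S.Rad K x w → S.Rad K (k x) (k w)) ∧
  (∀ (a b c : F) x y, a ≠ 0 → b ≠ 0 → S.B x x = 0 →
    (S.Good K x y → S.Good K (a • x) (b • y + c • x)) ∧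
    (S.Bad K x y → S.Bad K (a • x) (b • y + c • x)) ∧ (S.All K x → S.All K (a • x))) ∧
  (∀ x y, S.Good K x y → ¬ S.Bad K x y) ∧
  ∀ x w, S.B x x = 0 → S.Rad K x w →
    ∃ g ∈ K, g ∈ uniRad S.B x ∧ ∀ z, S.B x z = 0 → g z = z - S.B w z • x

/-- **DICH** -/
def DichStmt : Prop := AllK fun S K => S.CovA K → S.Dich K

/-- **EX1** -/
def Ex1Stmt : Prop := AllU fun {F V} _ _ _ _ _ S => ∀ v, S.Fr v → ∀ (h g : V ≃ₗ[F] V) t,
  Tri v h t → Tri v g 1 → ∀ a b : Fin S.n, a < b →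
  (∀ c d : Fin S.n, a ≤ c → c < d → d ≤ b → (c ≠ a ∨ d ≠ b) → S.ent v g c d = 0) →
  S.ent v (h * g * h⁻¹ * g⁻¹) a b = ((t a : F) / t b - 1) * S.ent v g a b

/-- **EXT** -/
def ExtStmt : Prop := AllK fun S K => S.CovB K → ∀ v, S.Fr v → ∀ g ∈ K, Tri v g 1 →
  g (v S.i1) ≠ v S.i1 → ¬ S.Bad K (v S.i0) (v S.i1)

/-- **LINE** -/
def LineStmt : Prop := AllK fun S K => S.CovA K → S.CovB K → S.Dich K → S.Line K

/-- **SYL** -/
def SylStmt : Prop := AllK fun S K => S.Dich K → S.Line K → ∃ x, S.All K x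

/-! ### The end -/

/-- **CW** -/
def CwStmt : Prop := AllU fun {_ V} _ _ _ _ _ S => ∀ A : AddSubgroup V,
  (∀ a ∈ A, S.B a a = 0 → a = 0) → Nat.card A ≤ S.q ^ 2

/-- **TVS** -/
def TvsStmt : Prop := AllK fun S K => ∀ x, S.All K x → HasTv S.B K x ∧
  ∀ f, HypPair S.B x f → ∃ w c, ∃ g ∈ K, IsEich S.B x w c g ∧ S.B x w = 0 ∧ S.B f w = 0 ∧
    S.B w w ≠ 0

/-- **EN1** -/
def En1Stmt : Prop := AllK fun {F V} _ _ _ _ _ S K => ∀ x x', S.All K x → S.All K x' →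
  S.B x x' ≠ 0 → ∃ E : Submodule F V, NondegOn S.B E ∧ finrank F E = 3 ∧ x ∈ E ∧ suOn S.B E ≤ K

/-- **END** -/
def EndStmt : Prop := AllK fun {F V} _ _ _ _ _ S K => ¬ S.G ≤ K → (∃ x, S.All K x) →
  (∃ W : Submodule F V, W ≠ ⊥ ∧ TotIso S.B W ∧ K ≤ stab W) ∨
  ∃ v, S.B v v ≠ 0 ∧ K ≤ stab (F ∙ v)

/-- **PAR** -/
def ParStmt : Prop := AllK fun {F V} _ _ _ _ _ S K => Rk3 (K.subgroupOf S.G) →
  ∀ W : Submodule F V, W ≠ ⊥ → TotIso S.B W → K ≤ stab W → finrank F W = 1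

/-- **NON** -/
def NonStmt : Prop := AllK fun {F _} _ _ _ _ _ S K => Rk3 (K.subgroupOf S.G) →
  ∀ v, S.B v v ≠ 0 → ¬ K ≤ stab (F ∙ v)

/-- **IDX** -/
def IdxStmt : Prop := AllK fun {F V} _ _ _ _ _ S K => IsCoatom (K.subgroupOf S.G) →
  ∀ W : Submodule F V, finrank F W = 1 → TotIso S.B W → K ≤ stab W →
  K.relIndex S.G * (S.q ^ 2 - 1) = cI S.q S.n

/-- The theorem for the isometry group. -/
def MainStmt : Prop := AllK fun S K => IsCoatom (K.subgroupOf S.G) →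
  Subgroup.center S.G ≤ K.subgroupOf S.G → Rk3 (K.subgroupOf S.G) →
  K.relIndex S.G * (S.q ^ 2 - 1) = cI S.q S.n

theorem main (ct : CtStmt) (tc : TcStmt) (ex : ExpStmt) (c1 : C1Stmt) (c2 : C2Stmt)
    (dich : DichStmt) (line : LineStmt) (syl : SylStmt) (en : EndStmt) (par : ParStmt)
    (non : NonStmt) (idx : IdxStmt) : MainStmt := by
  intro F V _ _ _ _ _ S K hK co ce r3
  have hne : ¬ S.G ≤ K := fun h => co.1 (Subgroup.subgroupOf_eq_top.2 h)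
  have ha : S.CovA K := fun v hv => by
    obtain ⟨D, d1, d2⟩ := tc S K hK r3 v hv (ct S K hK co ce v hv)
    obtain ⟨r, hr, h⟩ := ex S D d2
    obtain ⟨j, hj, h'⟩ := c1 S D d2 r hr h
    refine ⟨j, hj, fun c => ?_⟩
    obtain ⟨t, ht, e⟩ := h' c
    obtain ⟨g, hg, e'⟩ := d1 t ht
    exact ⟨g, hg, t.1, e', e⟩
  have hb : S.CovB K := fun v hv a b h1 h2 h3 => by
    obtain ⟨D, d1, d2⟩ := tc S K hK r3 v hv (ct S K hK co ce v hv)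
    obtain ⟨r, hr, h⟩ := ex S D d2
    obtain ⟨t, e1, e2⟩ := c2 S r hr a b h1 h2 h3
    obtain ⟨g, hg, e'⟩ := d1 _ (h t)
    refine ⟨g, hg, _, e', ?_, e2⟩
    change t.1 a ^ r = t.1 b ^ r
    rw [e1]
  have hd := dich S K hK ha
  rcases en S K hK hne (syl S K hK hd (line S K hK ha hb hd)) with ⟨W, w0, wi, wk⟩ | ⟨v, hv, h⟩
  · exact idx S K hK co W (par S K hK r3 W w0 wi wk) wi wk
  · exact absurd h (non S K hK r3 v hv)

end Cfsg.Agent.H74.Ru
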