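import Mathlib
import Cfsg.Agent.H50.L81Defs

/-! The spectra of an element of order `547` on the simple modules of `SL₂(3 ^ 7)` do not cover
the roots of `E₈`. -/

set_option autoImplicit false

namespace Cfsg.Agent.H74.L81N7c

open Cfsg.Lie H37 H40 H34 H29 H50.SL2S H50.E83 H50.L81

/-- The bit mask of a list. -/
noncomputable def mk (L : List ℕ) : ℕ :=
  List.rec 0 (fun e _ ih => Nat.lor ih (Nat.shiftLeft 1 e)) L

/-- Inclusion of bit masks. -/
noncomputable def sub (a S : ℕ) : Bool := Nat.beq (Nat.land a S) a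

/-- The union of the masks contained in `S`. -/
noncomputable def cov (S : ℕ) (MS : List ℕ) : ℕ :=
  List.rec 0 (fun a _ ih => Bool.rec ih (Nat.lor ih a) (sub a S)) MS

/-- The ternary digits of `j` are at most those of `r`. -/
noncomputable def lu (n : ℕ) : ℕ → ℕ → Bool :=
  Nat.rec (fun _ _ => true) (fun _ ih j r =>
    Bool.rec false (ih (Nat.div j 3) (Nat.div r 3)) (Nat.ble (Nat.mod j 3) (Nat.mod r 3))) n

/-- The bit mask of a spectrum. -/
noncomputable def dig (q R n : ℕ) : ℕ → ℕ → ℕ → ℕ :=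
  Nat.rec (fun _ j _ => Nat.shiftLeft 1 (Nat.mod (Nat.add (Nat.sub R j) (Nat.mul q j)) (Nat.succ q)))
    (fun _ ih r j p => fN (Nat.div r 3) fun r' => fN (Nat.mul 3 p) fun p' => Nat.rec 0
      (fun d acc => Nat.lor acc (fN (Nat.add j (Nat.mul d p)) fun j' => ih r' j' p'))
      (Nat.succ (Nat.mod r 3))) n

theorem testBit_mk {L : List ℕ} {e : ℕ} : (mk L).testBit e = true ↔ e ∈ L := by
  induction L with
  | nil => simp [mk]
  | cons x L ih =>
    show (mk L ||| 1 <<< x).testBit e = true ↔ _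
    rw [Nat.testBit_or, Bool.or_eq_true, ih, Nat.one_shiftLeft, Nat.testBit_two_pow, List.mem_cons,
      or_comm, decide_eq_true_eq, eq_comm]

theorem sub_of {a S : ℕ} (h : ∀ e, a.testBit e = true → S.testBit e = true) : sub a S = true := by
  rw [sub, Nat.beq_eq]
  refine Nat.eq_of_testBit_eq fun e => ?_
  show (a &&& S).testBit e = _
  rw [Nat.testBit_and]
  cases h1 : a.testBit e
  · rfl
  · rw [h e h1]; rfl

theorem testBit_cov {S a e : ℕ} {MS : List ℕ} (ha : a ∈ MS) (h : sub a S = true)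
    (he : a.testBit e = true) : (cov S MS).testBit e = true := by
  induction MS with
  | nil => simp at ha
  | cons x MS ih =>
    show (Bool.rec (cov S MS) (cov S MS ||| x) (sub x S) : ℕ).testBit e = true
    rcases List.mem_cons.1 ha with rfl | ha
    · rw [h]; simp [he]
    · cases sub x S <;> simp [ih ha]

theorem lu_iff {n j r : ℕ} (hr : r < 3 ^ n) (hj : j < 3 ^ n) :
    lu n j r = true ↔ ¬ 3 ∣ r.choose j := by
  induction n generalizing j r with
  | zero => simp_all [lu]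
  | succ n ih =>
    have : Fact (Nat.Prime 3) := ⟨Nat.prime_three⟩
    have h1 : ∀ a < 3, ∀ b < 3, (3 ∣ a.choose b ↔ ¬ b ≤ a) := by decide
    rw [(Choose.choose_modEq_choose_mod_mul_choose_div_nat (n := r) (k := j) (p := 3)).dvd_iff
      dvd_rfl, Nat.prime_three.dvd_mul, not_or, ← ih (r := r / 3) (j := j / 3) (by omega) (by omega),
      h1 (r % 3) (by omega) (j % 3) (by omega), not_not, ← Nat.ble_eq]
    show (Bool.rec false (lu n (j / 3) (r / 3)) (Nat.ble (j % 3) (r % 3)) : Bool) = true ↔ _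
    cases Nat.ble (j % 3) (r % 3) <;> simp

theorem testBit_dig {q R n e : ℕ} : ∀ {r j p : ℕ}, (dig q R n r j p).testBit e = true ↔
    ∃ i < 3 ^ n, lu n i r = true ∧ (R - (j + i * p) + q * (j + i * p)) % (q + 1) = e := by
  induction n with
  | zero =>
    intro r j p
    show (1 <<< ((R - j + q * j) % (q + 1))).testBit e = true ↔ _
    simp [Nat.one_shiftLeft, Nat.testBit_two_pow, lu]
  | succ n ih =>
    intro r j p
    have h1 : ∀ (F : ℕ → ℕ) (m : ℕ), (Nat.rec 0 (fun d acc => Nat.lor acc (F d)) m : ℕ).testBit e =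
        true ↔ ∃ d < m, (F d).testBit e = true := fun F m => by
      induction m with
      | zero => simp
      | succ m ih =>
        show (_ ||| F m).testBit e = true ↔ _
        rw [Nat.testBit_or, Bool.or_eq_true, ih, Nat.exists_lt_succ_right]
    have h2 : ∀ i, lu (n + 1) i r = true ↔ i % 3 ≤ r % 3 ∧ lu n (i / 3) (r / 3) = true := fun i => by
      rw [← Nat.ble_eq]
      show (Bool.rec false (lu n (i / 3) (r / 3)) (Nat.ble (i % 3) (r % 3)) : Bool) = true ↔ _
      cases Nat.ble (i % 3) (r % 3) <;> simp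
    have h3 : dig q R (n + 1) r j p = Nat.rec 0 (fun d acc => Nat.lor acc
        (dig q R n (r / 3) (j + d * p) (3 * p))) (r % 3 + 1) := by
      simp only [dig, fN_eq]; rfl
    rw [h3]
    refine (h1 (fun d => dig q R n (r / 3) (j + d * p) (3 * p)) (r % 3 + 1)).trans ?_
    simp only [ih, h2]
    constructor
    · rintro ⟨d, hd, i, hi, h4, h5⟩
      refine ⟨d + 3 * i, by omega, ⟨by omega, ?_⟩, ?_⟩
      · rwa [show (d + 3 * i) / 3 = i by omega]
      · rwa [show j + (d + 3 * i) * p = j + d * p + i * (3 * p) by ring]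
    · rintro ⟨i, hi, ⟨h4, h5⟩, h6⟩
      refine ⟨i % 3, by omega, i / 3, by omega, h5, ?_⟩
      rwa [show j + i % 3 * p + i / 3 * (3 * p) = j + (i % 3 + 3 * (i / 3)) * p by ring,
        Nat.mod_add_div]

/-- The values of the label. -/
noncomputable def fv (r : ℕ) : ℕ :=
  ((∑ j : Fin 8, gt rcE8 r j * (([535, 21, 36, 439, 324, 122, 181, 1] : List ℕ).getD j 0 : ℕ)) %
    547).toNat

/-- The check. -/
noncomputable def chk : Bool :=
  mapF fv (List.range 240) fun U =>
    mapF (fun a => fN (Nat.mul 2 a) fun r => dig 546 r 7 r 0 1) (List.range 1094) fun MS =>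
      H29.allN (fun i => mapF (fun u => Nat.mod (Nat.mul (Nat.succ i) u) 547) U fun L =>
        fN (mk (0 :: L)) fun S => !(sub (mk L) (cov S MS))) 546

theorem chk_ok : chk = true := by decide +kernel

theorem vN_tab (a : List ℕ) (r : Rt) :
    vN C8 a r = ∑ j : Fin 8, gt rcE8 r j * (a.getD j 0 : ℕ) :=
  Finset.sum_congr rfl fun j _ => by rw [rc_eq C8 tabOKE8]

theorem f7_eq (r : Rt) : ((f7 r : ℤ) : ZMod 547) = (fv r : ℕ) := by
  rw [f7, vN_tab, fv, ← Int.cast_natCast, Int.toNat_of_nonneg (Int.emod_nonneg _ (by norm_num))]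
  exact (ZMod.intCast_mod _ 547).symm

theorem cast_eq {a b : ℕ} (ha : a < 547) (hb : b < 547) : (a : ZMod 547) = b ↔ a = b := by
  rw [ZMod.natCast_eq_natCast_iff', Nat.mod_eq_of_lt ha, Nat.mod_eq_of_lt hb]

theorem ex_cast {r j : ℕ} (h : j ≤ r) :
    (((r - j + 546 * j) % 547 : ℕ) : ZMod 547) = (r : ZMod 547) - 2 * j := by
  rw [ZMod.natCast_mod, Nat.cast_add, Nat.cast_sub h, Nat.cast_mul]
  have : ((546 : ℕ) : ZMod 547) = -1 := by decide
  rw [this]; ring

theorem bit_iff {r e : ℕ} (hr : r < 2187) : (dig 546 r 7 r 0 1).testBit e = true ↔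
    ∃ j ∈ JJ 3 r, (r - j + 546 * j) % 547 = e := by
  simp only [testBit_dig, zero_add, mul_one, JJ, Finset.mem_filter, Finset.mem_range]
  refine exists_congr fun i => ⟨fun h => ⟨⟨?_, (lu_iff (n := 7) hr h.1).1 h.2.1⟩, h.2.2⟩,
    fun h => ⟨by omega, (lu_iff (n := 7) hr (by omega)).2 h.1.2, h.2⟩⟩
  by_contra h1
  exact (lu_iff (n := 7) hr h.1).1 h.2.1
    (by rw [Nat.choose_eq_zero_of_lt (by omega)]; exact dvd_zero 3)

theorem n7c : N7cStmt := by
  intro μ h0 h1
  have h := chk_ok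
  simp only [chk, mapF_eq, fN_eq, H29.allN_iff] at h
  have h2 := h (μ - 1) (by omega)
  rw [show Nat.succ (μ - 1) = μ by omega] at h2
  set L := ((List.range 240).map fv).map fun u => Nat.mod (Nat.mul μ u) 547 with hL
  have hm : ∀ e, e ∈ L ↔ ∃ s : Rt, μ * fv s % 547 = e := fun e => by
    simp only [hL, List.mem_map, List.mem_range]
    constructor
    · rintro ⟨_, ⟨s, hs, rfl⟩, h⟩
      exact ⟨⟨s, hs⟩, h⟩
    · rintro ⟨s, h⟩
      exact ⟨_, ⟨s, s.2, rfl⟩, h⟩
  have hc : ∀ s : Rt, ((μ * fv s % 547 : ℕ) : ZMod 547) = μ * f7 s := fun s => by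
    rw [ZMod.natCast_mod, Nat.cast_mul, f7_eq]
  by_contra hn
  push Not at hn
  rw [sub_of fun e he => ?_] at h2
  · simp at h2
  obtain ⟨s, rfl⟩ := (hm e).1 (testBit_mk.1 he)
  obtain ⟨r, hr, ⟨a, ha⟩, ⟨j, hj, h3⟩, h4⟩ := hn s
  have hle : ∀ j ∈ JJ 3 r, j ≤ r := fun j hj => by
    have := (Finset.mem_filter.1 hj).1
    rw [Finset.mem_range] at this
    omega
  refine testBit_cov (a := dig 546 r 7 r 0 1)
    (List.mem_map.2 ⟨a, List.mem_range.2 (by omega), ?_⟩) (sub_of fun e he => ?_) ?_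
  · rw [show Nat.mul 2 a = r from by rw [ha]; exact two_mul a]
  · obtain ⟨i, hi, rfl⟩ := (bit_iff hr).1 he
    rw [testBit_mk, List.mem_cons, hm]
    by_cases h5 : (r : ZMod 547) - 2 * i = 0
    · left
      rw [← ex_cast (hle i hi), ← Nat.cast_zero] at h5
      exact (cast_eq (Nat.mod_lt _ (by norm_num)) (by norm_num)).1 h5
    · right
      obtain ⟨t, ht⟩ := h4 i hi h5
      rw [← ex_cast (hle i hi), ← hc] at ht
      exact ⟨t, ((cast_eq (Nat.mod_lt _ (by norm_num)) (Nat.mod_lt _ (by norm_num))).1 ht).symm⟩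
  · rw [← ex_cast (hle j hj), ← hc] at h3
    exact (bit_iff hr).2 ⟨j, hj,
      (cast_eq (Nat.mod_lt _ (by norm_num)) (Nat.mod_lt _ (by norm_num))).1 h3⟩

end Cfsg.Agent.H74.L81N7c
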