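import Cfsg.Agent.H11.CyLp

/-! The pair stabiliser is cyclic when the line centraliser has order `p`. -/

set_option autoImplicit false

namespace Cfsg.Agent.H74.LpN3c

open Subgroup MulAction Cfsg.Agent.H11.Cy Cfsg.Agent.H11.Cy.Lp

theorem n3c : N3cStmt := by
  intro G _ _ Ω _ _ p A h x y l e1 k hK hk
  obtain ⟨f, s, c⟩ := l.lc x y l.xy
  have t := l.lt x y l.xy f s c
  have a := l.la x y l.xy
  have h1 : k ∈ Kl A x y := hK ▸ mem_zpowers k
  have h2 := (l.mc.ep.kfix x y l.xy k).1 h1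
  have h3 : k ∈ Hs G x y := ⟨h2 x a.mx, h2 y a.my⟩
  have h4 : (orderOf k).Coprime (orderOf f) := by
    rw [hk]
    have := c.fo
    have := l.p7
    exact Nat.coprime_of_lt_prime (by omega) (by omega) h.pp
  refine isCyclic_of_orderOf_eq_card (⟨k * f, mul_mem h3 c.fH⟩ : Hs G x y) ?_
  rw [orderOf_mk, (t.com k h3).orderOf_mul_eq_mul_orderOf_of_coprime h4, t.e1c e1, hK,
    Nat.card_zpowers, mul_comm]

end Cfsg.Agent.H74.LpN3c
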