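import Cfsg.Agent.H14.RkDefs
import Cfsg.Agent.S0680
import Cfsg.Agent.H15.CS1

/-! A simple group is not doubly transitive on a conjugacy class whose length has isolated primes. -/

set_option autoImplicit false

namespace Cfsg.Agent.H74.Rk

open Subgroup Cfsg.Agent.H92 Cfsg.Agent.H14.Rk MulAction

universe u

/-- the kernel of a sharply doubly transitive action -/
theorem sharp {N Δ : Type*} [Group N] [MulAction N Δ] [Finite Δ] [Nontrivial Δ]
    (two : ∀ a b c d : Δ, a ≠ b → c ≠ d → ∃ g : N, g • a = c ∧ g • b = d)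
    (sh : ∀ (g : N) (a b : Δ), a ≠ b → g • a = a → g • b = b → ∀ c : Δ, g • c = c) :
    ∃ p : ℕ, p.Prime ∧ ∃ V : Subgroup N, V.Normal ∧ (∀ g ∈ V, ∀ c : Δ, g ^ p • c = c) ∧
      ∀ g, g ∈ V ↔ (∀ c : Δ, g • c = c) ∨ ∀ c : Δ, g • c ≠ c := by
  classical
  have := Fintype.ofFinite Δ
  have : IsMultiplyPretransitive (toPermHom N Δ).range Δ 2 :=
    is_two_pretransitive_iff.2 fun {a b c d} h1 h2 => by
      obtain ⟨g, e⟩ := two a b c d h1 h2
      exact ⟨⟨_, g, rfl⟩, e⟩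
  obtain ⟨p, -, hp, -, -, h⟩ := S0680.result (toPermHom N Δ).range (fun x => eq_bot_iff.2 (by
    rintro ⟨_, g, rfl⟩ hg
    have e := fun i => congrArg (fun f : Fin 2 ↪ Δ => f i) (mem_stabilizer_iff.1 hg)
    exact Subtype.ext (Equiv.ext (sh g (x 0) (x 1) (x.injective.ne (by decide)) (e 0) (e 1)))))
    Fintype.one_lt_card
  have : Fact p.Prime := ⟨hp⟩
  obtain ⟨P⟩ : Nonempty (Sylow p (toPermHom N Δ).range) := inferInstance
  obtain ⟨n, -, e, -, -, m⟩ := h this P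
  refine ⟨p, hp, (P : Subgroup _).comap (toPermHom N Δ).rangeRestrict, inferInstance,
    fun g hg c => ?_, fun g => (m _).trans (or_congr ⟨fun e c => ?_, fun e => ?_⟩ Iff.rfl)⟩
  · have := e _ hg
    rw [← map_pow] at this
    exact congrArg (fun f : (toPermHom N Δ).range => f.1 c) this
  · exact congrArg (fun f : (toPermHom N Δ).range => f.1 c) e
  · exact Subtype.ext (Equiv.ext e)

theorem exists_pow {C : Type*} [Group C] [Finite C] {p : ℕ} (hp : p.Prime)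
    (h : ∀ g : C, g ^ p ∈ center C) :
    ∃ k, ∀ a b : C, (a * b) ^ p ^ (k + 1) = (a ^ p) ^ p ^ k * (b ^ p) ^ p ^ k := by
  have : Fact p.Prime := ⟨hp⟩
  have hP : IsPGroup p (C ⧸ center C) := fun g => by
    obtain ⟨g, rfl⟩ := QuotientGroup.mk_surjective g
    exact ⟨1, by rw [pow_one, ← QuotientGroup.mk_pow, QuotientGroup.eq_one_iff]; exact h g⟩
  obtain ⟨k, hk⟩ := hP.exists_card_eq
  refine ⟨k, fun a b => ?_⟩
  have e : ∀ g : C, (MonoidHom.transferCenterPow C (g ^ p) : C) = (g ^ p) ^ p ^ k := fun g => by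
    rw [MonoidHom.transferCenterPow_apply, index_eq_card, hk]
  rw [pow_succ', pow_mul, ← e, ← e, ← e, map_pow, map_pow, map_pow, map_mul,
    Commute.mul_pow (Subtype.ext (mem_center_iff.1 (MonoidHom.transferCenterPow C b).2 _)), coe_mul]

variable {G : Type u} [Group G] {x : G}

theorem not_comm [IsSimpleGroup G] (hG : ¬ IsMulCommutative G) (x1 : x ≠ 1) (T : TwoTr x) {u v : G}
    (hu : IsConj x u) (hv : IsConj x v) (c : u * v = v * u) : u = v := by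
  by_contra n
  obtain ⟨a, rfl⟩ := isConj_iff.1 hu
  have hy : IsConj x (a⁻¹ * v * a) := hv.trans (isConj_iff.2 ⟨a⁻¹, by rw [inv_inv]⟩)
  have le : normalClosure {x} ≤ Ce[x] := (closure_le _).2 fun z hz => by
    obtain ⟨_, e, hz⟩ := Group.mem_conjugatesOfSet_iff.1 hz
    rw [Set.mem_singleton_iff.1 e] at hz
    clear e
    by_cases e : z = x
    · exact e ▸ self_mem_C _
    obtain ⟨k, k1, rfl⟩ := T _ z hy hz (fun e => n (by rw [← e]; group)) e
    refine mul_mem (mul_mem k1 (mem_C.2 ?_)) (inv_mem k1)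
    calc _ = a⁻¹ * (v * (a * x * a⁻¹)) * a := by group
      _ = _ := by rw [← c]; group
  rcases (inferInstance : (normalClosure {x}).Normal).eq_bot_or_eq_top with h | h
  · exact x1 (mem_bot.1 (h ▸ subset_normalClosure rfl))
  rcases (inferInstance : (center G).Normal).eq_bot_or_eq_top with h1 | h1
  · exact x1 (mem_bot.1 (h1 ▸ C_eq_top_iff.1 (eq_top_iff.2 (h ▸ le))))
  · exact hG ⟨⟨fun a b => (mem_center_iff.1 (h1 ▸ mem_top b : b ∈ center G) a)⟩⟩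

theorem two_trans (T : TwoTr x) {y u v : G} (hy : IsConj x y) (n : y ≠ x) (hu : IsConj x u)
    (hv : IsConj x v) (n' : u ≠ v) : ∃ g, g * x * g⁻¹ = u ∧ g * y * g⁻¹ = v := by
  obtain ⟨a, rfl⟩ := isConj_iff.1 hu
  obtain ⟨k, k1, e⟩ := T y (a⁻¹ * v * a) hy (hv.trans (isConj_iff.2 ⟨a⁻¹, by rw [inv_inv]⟩)) n
    fun e => n' (by rw [← e]; group)
  refine ⟨a * k, ?_, ?_⟩
  · rw [mul_assoc a, (mem_C.1 k1).eq]; group
  · calc _ = a * (k * y * k⁻¹) * a⁻¹ := by group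
      _ = _ := by rw [e]; group

theorem conj_inj [Finite G] (T : TwoTr x) {y : G} (hy : IsConj x y) (n : y * x ≠ x * y) {w u v : G}
    (hw : IsConj x w) (hu : IsConj x u) (hv : IsConj x v) (e : u * w * u⁻¹ = v * w * v⁻¹) :
    u = v := by
  obtain ⟨a, rfl⟩ := isConj_iff.1 hw
  let f : {u // IsConj x u} → {u // IsConj x u} := fun u => ⟨u.1 * x * u.1⁻¹, isConj_iff.2 ⟨_, rfl⟩⟩
  have sf : Function.Surjective f := fun z => by
    by_cases e : z.1 = x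
    · exact ⟨⟨x, IsConj.refl x⟩, Subtype.ext (by rw [e]; exact mul_inv_cancel_right x x)⟩
    obtain ⟨k, k1, e⟩ := T (y * x * y⁻¹) z (isConj_iff.2 ⟨_, rfl⟩) z.2
      (fun e => n (mul_inv_eq_iff_eq_mul.1 e)) e
    refine ⟨⟨k * y * k⁻¹, hy.trans (isConj_iff.2 ⟨_, rfl⟩)⟩, Subtype.ext (Eq.trans ?_ e)⟩
    calc _ = k * y * (k⁻¹ * x * k) * y⁻¹ * k⁻¹ := by simp [f, mul_assoc]
      _ = _ := by rw [(mem_C.1 (inv_mem k1)).eq]; group
  have := congrArg Subtype.val (Finite.injective_iff_surjective.2 sf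
    (a₁ := ⟨a⁻¹ * u * a, hu.trans (isConj_iff.2 ⟨a⁻¹, by rw [inv_inv]⟩)⟩)
    (a₂ := ⟨a⁻¹ * v * a, hv.trans (isConj_iff.2 ⟨a⁻¹, by rw [inv_inv]⟩)⟩) (Subtype.ext (by
      calc _ = a⁻¹ * (u * (a * x * a⁻¹) * u⁻¹) * a := by simp [f, mul_assoc]
        _ = _ := by rw [e]; simp [f, mul_assoc])))
  simpa using this

/-- the conjugates centralized by a subgroup -/
def Fx (x : G) (H : Subgroup G) : Type u := {u // IsConj x u ∧ u ∈ centralizer (H : Set G)}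

theorem conj_cent {H : Subgroup G} {g u : G} (hg : g ∈ normalizer (H : Set G))
    (hu : u ∈ centralizer (H : Set G)) : g * u * g⁻¹ ∈ centralizer (H : Set G) := fun h hh => by
  have := hu _ ((mem_normalizer_iff''.1 hg h).1 hh)
  calc _ = g * (g⁻¹ * h * g * u) * g⁻¹ := by group
    _ = _ := by rw [this]; group

instance (x : G) (H : Subgroup G) : MulAction (normalizer (H : Set G)) (Fx x H) where
  smul g u := ⟨g * u.1 * g⁻¹, u.2.1.trans (isConj_iff.2 ⟨_, rfl⟩), conj_cent g.2 u.2.2⟩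
  one_smul u := Subtype.ext (by change 1 * u.1 * 1⁻¹ = _; group)
  mul_smul a b u := Subtype.ext (by
    change a.1 * b.1 * u.1 * (a.1 * b.1)⁻¹ = a.1 * (b.1 * u.1 * b.1⁻¹) * a.1⁻¹; group)

theorem smul_eq {H : Subgroup G} {g : normalizer (H : Set G)} {u v : Fx x H} :
    g • u = v ↔ g.1 * u.1 * g.1⁻¹ = v.1 := Subtype.ext_iff

theorem twoT : TwoTStmt.{u} := by
  intro G _ _ _ hG x x1 T hyp
  have nc := fun {u v} => not_comm hG x1 T (u := u) (v := v)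
  obtain ⟨y, hy, n⟩ : ∃ y, IsConj x y ∧ y ≠ x := by
    by_contra! h
    rcases (inferInstance : (center G).Normal).eq_bot_or_eq_top with h1 | h1
    · exact x1 (mem_bot.1 (h1 ▸ mem_center_iff.2 fun g =>
        mul_inv_eq_iff_eq_mul.1 (h _ (isConj_iff.2 ⟨g, rfl⟩))))
    · exact hG ⟨⟨fun a b => (mem_center_iff.1 (h1 ▸ mem_top b : b ∈ center G) a)⟩⟩
  have inj := fun {w u v} => conj_inj T hy (fun e => n (nc hy (IsConj.refl x) e)) (w := w) (u := u)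
    (v := v)
  have fpf : ∀ {w u v}, IsConj x w → IsConj x u → IsConj x v → u * v⁻¹ * w * (u * v⁻¹)⁻¹ = w →
      u = v := fun {w u v} hw hu hv e =>
    inj (hw.trans (isConj_iff.2 ⟨v⁻¹, rfl⟩)) hu hv (by
      calc _ = u * v⁻¹ * w * (u * v⁻¹)⁻¹ := by group
        _ = _ := by rw [e]; group)
  generalize hH : Ce[x] ⊓ Ce[y] = H
  have mH : ∀ {h}, h ∈ H ↔ Commute h x ∧ Commute h y := by
    intro h; rw [← hH, mem_inf, mem_C, mem_C]
  have cN : centralizer (H : Set G) ≤ normalizer (H : Set G) := centralizer_le_normalizer _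
  let X : Fx x H := ⟨x, IsConj.refl x, fun h hh => (mH.1 hh).1⟩
  let Y : Fx x H := ⟨y, hy, fun h hh => (mH.1 hh).2⟩
  have XY : X ≠ Y := fun e => n (congrArg Subtype.val e).symm
  have : Nontrivial (Fx x H) := ⟨X, Y, XY⟩
  have : Finite (Fx x H) := Subtype.finite
  have back : ∀ {g h : G} {u v : G}, g * x * g⁻¹ = u → g * y * g⁻¹ = v → h * u = u * h →
      h * v = v * h → g⁻¹ * h * g ∈ H := fun {g h u v} e1 e2 c1 c2 =>
    mH.2 ⟨mem_C.1 (mem_C_conj.1 (e1 ▸ mem_C.2 c1)), mem_C.1 (mem_C_conj.1 (e2 ▸ mem_C.2 c2))⟩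
  have t0 : ∀ u v : Fx x H, u ≠ v → ∃ g : normalizer (H : Set G), g • X = u ∧ g • Y = v := by
    intro u v h
    obtain ⟨g, e1, e2⟩ := two_trans T hy n u.2.1 v.2.1 fun e => h (Subtype.ext e)
    refine ⟨⟨g, (inv_mem_iff).1 (mem_normalizer_fintype fun h hh => ?_)⟩, smul_eq.2 e1, smul_eq.2 e2⟩
    rw [inv_inv]; exact back e1 e2 (u.2.2 h hh) (v.2.2 h hh)
  have triv : ∀ g : normalizer (H : Set G), g.1 ∈ H → ∀ c : Fx x H, g • c = c := fun g hg c =>
    smul_eq.2 (mul_inv_eq_iff_eq_mul.2 (c.2.2 _ hg))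
  have toH : ∀ g : normalizer (H : Set G), (∀ c : Fx x H, g • c = c) → g.1 ∈ H := fun g h =>
    mH.2 ⟨mul_inv_eq_iff_eq_mul.1 (smul_eq.1 (h X)), mul_inv_eq_iff_eq_mul.1 (smul_eq.1 (h Y))⟩
  obtain ⟨p, hp, V, nV, pV, mV⟩ := sharp (N := normalizer (H : Set G)) (Δ := Fx x H)
    (fun a b c d h1 h2 => by
      obtain ⟨g, e1, e2⟩ := t0 a b h1
      obtain ⟨k, f1, f2⟩ := t0 c d h2
      exact ⟨k * g⁻¹, by rw [mul_smul, ← e1, inv_smul_smul, f1],
        by rw [mul_smul, ← e2, inv_smul_smul, f2]⟩)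
    fun g a b h e1 e2 => by
      obtain ⟨k, f1, f2⟩ := t0 a b h
      refine triv g ((mem_normalizer_iff''.1 k.2 _).2 (back (smul_eq.1 f1) (smul_eq.1 f2) ?_ ?_))
      exacts [mul_inv_eq_iff_eq_mul.1 (smul_eq.1 e1), mul_inv_eq_iff_eq_mul.1 (smul_eq.1 e2)]
  have dV : ∀ u v : Fx x H, (⟨u.1 * v.1⁻¹, cN (mul_mem u.2.2 (inv_mem v.2.2))⟩ :
      normalizer (H : Set G)) ∈ V := fun u v => by
    by_cases e : u = v
    · exact (mV _).2 (Or.inl fun c => smul_eq.2 (by simp [e]))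
    · exact (mV _).2 (Or.inr fun c h => e (Subtype.ext (fpf c.2.1 u.2.1 v.2.1 (smul_eq.1 h))))
  obtain ⟨u, hu⟩ := (Finite.injective_iff_surjective (f := fun u : Fx x H =>
    (⟨u.1, cN u.2.2⟩ : normalizer (H : Set G)) • X)).1 (fun u v e => Subtype.ext
      (inj (IsConj.refl x) u.2.1 v.2.1 (congrArg Subtype.val e))) Y
  have eu : u.1 * x * u.1⁻¹ = y := smul_eq.1 hu
  let C : Subgroup G := V.map (Subgroup.subtype _) ⊓ centralizer (H : Set G)
  have pH : ∀ g ∈ C, g ^ p ∈ H := by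
    rintro _ ⟨⟨g, hg, rfl⟩, -⟩
    exact toH (g ^ p) (pV g hg)
  obtain ⟨k, hk⟩ := exists_pow (C := C) hp fun g =>
    mem_center_iff.2 fun c => Subtype.ext (c.2.2 _ (pH _ g.2)).symm
  have l1 : u.1 * x⁻¹ ∈ C := ⟨⟨_, dV u X, rfl⟩, (centralizer _).mul_mem u.2.2 (inv_mem X.2.2)⟩
  have l2 : x * (u.1 * x⁻¹)⁻¹ * x⁻¹ ∈ C :=
    ⟨⟨_, nV.conj_mem _ (V.inv_mem (dV u X)) ⟨x, cN X.2.2⟩, rfl⟩,
      conj_cent (cN X.2.2) (inv_mem (mem_inf.1 l1).2)⟩
  have d1 : (y * x⁻¹) ^ p ^ (k + 1) = 1 := by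
    have := congrArg Subtype.val (hk ⟨_, l1⟩ ⟨_, l2⟩)
    simp only [coe_mul, coe_pow] at this
    rw [show u.1 * x⁻¹ * (x * (u.1 * x⁻¹)⁻¹ * x⁻¹) = y * x⁻¹ by rw [← eu]; group, conj_pow, inv_pow,
      (mH.1 (inv_mem (pH _ l1))).1.symm.eq, mul_inv_cancel_right, inv_pow, mul_inv_cancel] at this
    exact this
  have d2 := eq_pow_of_dvd_pow hp (orderOf_dvd_of_pow_eq_one d1)
  have d3 : y * x⁻¹ ≠ 1 := fun e => n (mul_inv_eq_one.1 e)
  have cop := hyp p _ hp (by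
    by_contra h
    obtain ⟨g, hg⟩ := H15.exists_conj_mem_C hp h d2
    exact n (fpf (isConj_iff.2 ⟨g, rfl⟩) hy (IsConj.refl x)
      (mul_inv_eq_iff_eq_mul.2 (mem_C'.1 hg).eq))) d3 d2
  have hb : H = ⊥ := eq_bot_of_card_eq _ (Nat.eq_one_of_dvd_coprimes cop
    (card_dvd_of_le fun h hh => mem_C.2 ((mH.1 hh).2.mul_right (mH.1 hh).1.inv_right))
    (card_dvd_of_le fun h hh => mem_C.2 (mH.1 hh).1))
  have all : ∀ g, g ∈ normalizer (H : Set G) := fun g => cN (hb ▸ fun h hh => by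
    rw [mem_bot.1 hh, one_mul, mul_one])
  have : (V.map (Subgroup.subtype _)).Normal := ⟨by
    rintro _ ⟨a, ha, rfl⟩ g
    exact ⟨_, nV.conj_mem a ha ⟨g, all g⟩, rfl⟩⟩
  rcases this.eq_bot_or_eq_top with h | h
  · exact d3 (mem_bot.1 (h ▸ ⟨_, dV Y X, rfl⟩))
  obtain ⟨g, hg, e⟩ := h.ge (mem_top x)
  have e' : g.1 = x := e
  rcases (mV g).1 hg with c | c
  · exact n (nc hy (IsConj.refl x) (e' ▸ mul_inv_eq_iff_eq_mul.1 (smul_eq.1 (c Y))).symm)
  · exact c X (smul_eq.2 (by rw [e']; exact mul_inv_cancel_right x x))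

end Cfsg.Agent.H74.Rk
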